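import Cfsg.Agent.OAut.OutB

/-!
Spinor norms of the diagonal torus of the standard hyperbolic form.
-/

set_option autoImplicit false

namespace Cfsg.Agent.OAut

open QuadraticMap Cfsg.Agent.Orth Cfsg.Agent.ClassO

variable {F : Type*} [Field F] {m : ℕ}

/-- The diagonal torus. -/
noncomputable def hd (m : ℕ) (F : Type*) [Field F] : (Fin m → Fˣ) →* OGrp (qfPlus m F) :=
  MonoidHom.mk' (fun a => ⟨{ (dS a 1).T with map_smul' := fun t v => (dS a 1).smul' t v },
    fun v => by
      have := (dS a 1).q' v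
      change qfPlus m F ((dS a 1).T v) = _
      rw [this]
      change ((1 : Fˣ) : F) * qfPlus m F v = _
      rw [Units.val_one, one_mul]⟩) (fun a b => by
    refine OGrp_ext fun v => ?_
    change (dS (a * b) 1).T v = (dS a 1).T ((dS b 1).T v)
    funext j
    rcases j with j | j
    · rw [dS_inl, dS_inl, dS_inl, Pi.mul_apply, Units.val_mul, mul_assoc]
    · rw [dS_inr, dS_inr, dS_inr, Pi.mul_apply, ← mul_assoc, ← Units.val_mul, mul_inv]
      congr 2
      rw [one_mul, one_mul, one_mul])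

theorem hd_apply (a : Fin m → Fˣ) (v : Fin m ⊕ Fin m → F) :
    ((hd m F a : OGrp (qfPlus m F)) : (Fin m ⊕ Fin m → F) ≃ₗ[F] (Fin m ⊕ Fin m → F)) v
      = (dS a 1).T v := rfl

/-- The vector `e_i + t f_i`. -/
def pw (m : ℕ) (i : Fin m) (t : F) : Fin m ⊕ Fin m → F := Pi.single (.inl i) 1 + t • Pi.single (.inr i) 1

theorem q_pw (i : Fin m) (t : F) : qfPlus m F (pw m i t) = t := by
  have h := hypk_plus (F := F) m id Function.injective_id
  have h1 : qfPlus m F (Pi.single (.inl i) 1) = 0 := h.e0 i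
  have h2 : qfPlus m F (Pi.single (.inr i) 1) = 0 := h.f0 i
  have h3 : polar (qfPlus m F) (Pi.single (.inl i) 1) (Pi.single (.inr i) 1) = 1 := by
    have := h.ef i i
    rwa [if_pos rfl] at this
  rw [pw, qadd, qsmul, psr, h1, h2, h3]; ring

theorem polar_pw (i : Fin m) (t : F) (v : Fin m ⊕ Fin m → F) :
    polar (qfPlus m F) v (pw m i t) = v (.inr i) + t * v (.inl i) := by
  rw [pw, par, psr, polar_qfPlus, polar_qfPlus]
  simp [Pi.single_apply]

variable [Fintype F]

/-- Square class character on units. -/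
noncomputable def sqU (F : Type*) [Field F] [Fintype F] : Fˣ →* ℤˣ :=
  MonoidHom.mk' (fun u => sqc (u : F)) (fun u v => by
    rw [Units.val_mul, sqc_mul u.ne_zero v.ne_zero])

/-- The product. -/
def prU (m : ℕ) (F : Type*) [Field F] : (Fin m → Fˣ) →* Fˣ :=
  MonoidHom.mk' (fun a => ∏ i, a i) (fun _ _ => Finset.prod_mul_distrib)

theorem hd_single (i : Fin m) (t : Fˣ) : hd m F (Pi.mulSingle i t) =
    refl (qfPlus m F) (pw m i 1) (by rw [q_pw]; exact one_ne_zero) *
      refl (qfPlus m F) (pw m i t) (by rw [q_pw]; exact t.ne_zero) := by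
  refine OGrp_ext fun v => ?_
  rw [coe_mul_apply, refl_apply, refl_apply, q_pw, q_pw]
  simp only [pdl, psl, polar_pw]
  rw [hd_apply]
  have h1 : pw m i (t : F) (.inl i) = 1 := by simp [pw]
  have h2 : pw m i (t : F) (.inr i) = t := by simp [pw]
  have h3 : pw m i (1 : F) (.inl i) = 1 := by simp [pw]
  have h4 : pw m i (1 : F) (.inr i) = 1 := by simp [pw]
  rw [h1, h2]
  have ht := t.ne_zero
  funext j
  rcases j with j | j
  · rw [dS_inl]
    by_cases hj : j = i
    · subst hj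
      simp only [Pi.sub_apply, Pi.smul_apply, smul_eq_mul, h1, h3, Pi.mulSingle_eq_same]
      field_simp
      ring
    · have e1 : pw m i (t : F) (.inl j) = 0 := by simp [pw, hj]
      have e2 : pw m i (1 : F) (.inl j) = 0 := by simp [pw, hj]
      simp only [Pi.sub_apply, Pi.smul_apply, smul_eq_mul, e1, e2, Pi.mulSingle_eq_of_ne hj]
      simp
  · rw [dS_inr]
    by_cases hj : j = i
    · subst hj
      simp only [Pi.sub_apply, Pi.smul_apply, smul_eq_mul, h2, h4, Pi.mulSingle_eq_same]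
      simp only [Units.val_mul, Units.val_inv_eq_inv_val, Units.val_one]
      field_simp
      ring
    · have e1 : pw m i (t : F) (.inr j) = 0 := by simp [pw, hj]
      have e2 : pw m i (1 : F) (.inr j) = 0 := by simp [pw, hj]
      simp only [Pi.sub_apply, Pi.smul_apply, smul_eq_mul, e1, e2, Pi.mulSingle_eq_of_ne hj]
      simp

theorem parity_hd (hQ : (polarBilin (qfPlus m F)).Nondegenerate) (hR : RGrp (qfPlus m F) = ⊤)
    (a : Fin m → Fˣ) : parityHom hQ hR (hd m F a) = 1 := by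
  have h : (parityHom hQ hR).comp (hd m F) = 1 := by
    refine MonoidHom.functions_ext _ _ _ fun i t => ?_
    rw [MonoidHom.comp_apply, hd_single, _root_.map_mul, parityHom_refl, parityHom_refl]
    rfl
  exact DFunLike.congr_fun h a

theorem spin_hd (hQ : (polarBilin (qfPlus m F)).Nondegenerate) (hR : RGrp (qfPlus m F) = ⊤)
    (a : Fin m → Fˣ) : spinHom hQ hR (hd m F a) = sqc ((∏ i, a i : Fˣ) : F) := by
  have h : (spinHom hQ hR).comp (hd m F) = (sqU F).comp (prU m F) := by
    refine MonoidHom.functions_ext _ _ _ fun i t => ?_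
    rw [MonoidHom.comp_apply, hd_single, _root_.map_mul, spinHom_refl, spinHom_refl, q_pw, q_pw]
    change _ = sqc ((∏ j, (Pi.mulSingle i t : Fin m → Fˣ) j : Fˣ) : F)
    rw [Finset.prod_pi_mulSingle', if_pos (Finset.mem_univ _), ← sqc_mul one_ne_zero t.ne_zero, one_mul]
  exact DFunLike.congr_fun h a

theorem hd_mem (hm : 3 ≤ m) (a : Fin m → Fˣ) :
    hd m F a ∈ commutator (OGrp (qfPlus m F)) ↔ IsSquare ((∏ i, a i : Fˣ) : F) := by
  have G := good_plus (F := F) hm
  rw [mem_commutator_iff_homs G.nd G.R, spin_hd, parity_hd]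
  constructor
  · rintro ⟨-, h⟩
    by_contra h1
    rw [sqc, if_neg h1] at h
    exact absurd h (by decide)
  · intro h
    exact ⟨rfl, if_pos h⟩

theorem oq_dS_one_iff (hm : 3 ≤ m) (a : Fin m → Fˣ) :
    oq (dS a 1) = 1 ↔ ∃ ε : Fˣ, ε * ε = 1 ∧ IsSquare (((∏ i, a i) * ε ^ m : Fˣ) : F) := by
  have G := good_plus (F := F) hm
  have hprod : ∀ ε : Fˣ, (∏ i : Fin m, (a * fun _ => ε : Fin m → Fˣ) i) = (∏ i, a i) * ε ^ m := by
    intro ε
    simp only [Pi.mul_apply, Finset.prod_mul_distrib, Finset.prod_const, Finset.card_univ,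
      Fintype.card_fin]
  have hT : ∀ (ε : Fˣ), ε * ε = 1 → ∀ v, (dS (a * fun _ => ε) 1).T v = (ε : F) • (dS a 1).T v := by
    intro ε hε v
    have hε' : ε⁻¹ = ε := inv_eq_of_mul_eq_one_left hε
    funext j
    rcases j with j | j
    · rw [Pi.smul_apply, dS_inl, dS_inl, Pi.mul_apply, Units.val_mul, smul_eq_mul]; ring
    · rw [Pi.smul_apply, dS_inr, dS_inr, Pi.mul_apply, mul_inv, hε', one_mul, one_mul,
        Units.val_mul, smul_eq_mul]; ring
  constructor
  · intro h
    obtain ⟨c, g, hcg⟩ := (oq_eq_one_iff G _).1 h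
    obtain ⟨e, f, hyp⟩ := G.hyp
    have h1 := (dS a 1).polar' (e 0) (f 0)
    rw [hcg, hcg, psl, psr, ap_polar, hyp.ef, if_pos rfl, map_one, mul_one, mul_one] at h1
    have hc : c * c = 1 := Units.ext h1
    refine ⟨c, hc, ?_⟩
    rw [← hprod, ← hd_mem hm]
    have h2 : hd m F (a * fun _ => c) = (g : OGrp (qfPlus m F)) := by
      refine OGrp_ext fun v => ?_
      rw [hd_apply, hT c hc, hcg, smul_smul]
      have : (c : F) * c = 1 := h1
      rw [this, one_smul]; rfl
    rw [h2]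
    exact g.2
  · rintro ⟨ε, hε, h⟩
    rw [← hprod, ← hd_mem hm] at h
    refine oq_eq_one_of (c := ε) (g := ⟨_, h⟩) fun v => ?_
    change _ = (ε : F) • ((hd m F (a * fun _ => ε) : OGrp (qfPlus m F)) :
      (Fin m ⊕ Fin m → F) ≃ₗ[F] (Fin m ⊕ Fin m → F)) v
    rw [hd_apply, hT ε hε, smul_smul, ← Units.val_mul, hε, Units.val_one, one_smul]

theorem oq_dS_one_of (hm : 3 ≤ m) (a : Fin m → Fˣ) (h : IsSquare (((∏ i, a i) : Fˣ) : F)) :
    oq (dS a 1) = 1 :=
  (oq_dS_one_iff hm a).2 ⟨1, one_mul 1, by rwa [one_pow, mul_one]⟩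

end Cfsg.Agent.OAut
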