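import Cfsg.Agent.H20.DihQuat

/-!
Homomorphisms from small groups given by generators: cyclic groups, the Klein four group,
`V₄ ⋊ S₃ = S₄`.
-/

set_option autoImplicit false

namespace Cfsg.Agent.OAut

/-- Homomorphism from a cyclic group. -/
def cyc {G : Type*} [Group G] (n : ℕ) [NeZero n] (x : G) (hx : x ^ n = 1) :
    Multiplicative (ZMod n) →* G :=
  MonoidHom.mk' (fun k => x ^ (Multiplicative.toAdd k).val) (fun _ _ => H20.zpow_val_add hx _ _)

theorem cyc_apply {G : Type*} [Group G] (n : ℕ) [NeZero n] (x : G) (hx : x ^ n = 1)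
    (k : Multiplicative (ZMod n)) : cyc n x hx k = x ^ (Multiplicative.toAdd k).val := rfl

/-- The Klein four group. -/
abbrev V4 : Type := Multiplicative (ZMod 2) × Multiplicative (ZMod 2)

/-- Homomorphism from the Klein four group. -/
def vhom {G : Type*} [Group G] (a b : G) (ha : a ^ 2 = 1) (hb : b ^ 2 = 1) (hab : Commute a b) :
    V4 →* G :=
  (cyc 2 a ha).noncommCoprod (cyc 2 b hb) (fun _ _ => hab.pow_pow _ _)

theorem vhom_apply {G : Type*} [Group G] (a b : G) (ha : a ^ 2 = 1) (hb : b ^ 2 = 1)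
    (hab : Commute a b) (v : V4) : vhom a b ha hb hab v =
      a ^ (Multiplicative.toAdd v.1).val * b ^ (Multiplicative.toAdd v.2).val := rfl

/-- The automorphism of order three. -/
def Tv : MulAut V4 where
  toFun v := (v.2, v.1 * v.2)
  invFun v := (v.2 * v.1, v.1)
  left_inv := by decide
  right_inv := by decide
  map_mul' := by decide

/-- The automorphism of order two. -/
def Kv : MulAut V4 where
  toFun v := (v.2, v.1)
  invFun v := (v.2, v.1)
  left_inv := by decide
  right_inv := by decide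
  map_mul' := by decide

theorem exists_theta3 : ∃ θ : DihedralGroup 3 →* MulAut V4,
    (∀ i, θ (DihedralGroup.r i) = Tv ^ i.val) ∧ ∀ i, θ (DihedralGroup.sr i) = Kv * Tv ^ i.val := by
  refine H20.exists_dihedralHom (N := 3) (x := Tv) (s := Kv) ?_ ?_ ?_
  · refine MulEquiv.ext ?_
    decide
  · refine MulEquiv.ext ?_
    decide
  · refine MulEquiv.ext ?_
    decide

/-- The action of `S₃` on the Klein four group. -/
noncomputable def th3 : DihedralGroup 3 →* MulAut V4 := exists_theta3.choose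

theorem th3_r (i : ZMod 3) : th3 (DihedralGroup.r i) = Tv ^ i.val := exists_theta3.choose_spec.1 i

theorem th3_sr (i : ZMod 3) : th3 (DihedralGroup.sr i) = Kv * Tv ^ i.val :=
  exists_theta3.choose_spec.2 i

/-- `V₄ ⋊ S₃`. -/
abbrev W24 : Type := V4 ⋊[th3] DihedralGroup 3

theorem exists_whom {G : Type*} [Group G] {a b t k : G} (ha : a ^ 2 = 1) (hb : b ^ 2 = 1)
    (hab : Commute a b) (ht : t ^ 3 = 1) (hk : k * k = 1) (hkt : k * t * k⁻¹ = t⁻¹)
    (hta : t * a * t⁻¹ = b) (htb : t * b * t⁻¹ = a * b) (hka : k * a * k⁻¹ = b)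
    (hkb : k * b * k⁻¹ = a) : ∃ Φ : W24 →* G,
    (∀ (v : V4) (i : ZMod 3), Φ ⟨v, DihedralGroup.r i⟩ =
      a ^ (Multiplicative.toAdd v.1).val * b ^ (Multiplicative.toAdd v.2).val * t ^ i.val) ∧
    (∀ (v : V4) (i : ZMod 3), Φ ⟨v, DihedralGroup.sr i⟩ =
      a ^ (Multiplicative.toAdd v.1).val * b ^ (Multiplicative.toAdd v.2).val * (k * t ^ i.val)) := by
  obtain ⟨δ, hδ1, hδ2⟩ := H20.exists_dihedralHom (N := 3) ht hk hkt
  obtain ⟨vh, hvh⟩ : ∃ vh : V4 →* G, vh = vhom a b ha hb hab := ⟨_, rfl⟩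
  have hvh' : ∀ v : V4, vh v =
      a ^ (Multiplicative.toAdd v.1).val * b ^ (Multiplicative.toAdd v.2).val := by
    intro v; rw [hvh]; rfl
  let P : DihedralGroup 3 → Prop := fun g => ∀ v, vh (th3 g v) = δ g * vh v * (δ g)⁻¹
  have hmul : ∀ g h, P g → P h → P (g * h) := by
    intro g h hg hh v
    rw [map_mul, map_mul, MulAut.mul_apply, hg, hh, mul_inv_rev]
    group
  have hone : P 1 := by
    intro v
    rw [map_one, map_one, MulAut.one_apply]; group
  have hr1 : P (DihedralGroup.r 1) := by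
    intro v
    rw [th3_r, hδ1]
    have h1 : (1 : ZMod 3).val = 1 := rfl
    rw [h1, pow_one, pow_one, hvh', hvh']
    change a ^ (Multiplicative.toAdd v.2).val * b ^ (Multiplicative.toAdd v.1 +
      Multiplicative.toAdd v.2).val = _
    rw [H20.zpow_val_add hb]
    have h2 : t * (a ^ (Multiplicative.toAdd v.1).val * b ^ (Multiplicative.toAdd v.2).val) * t⁻¹
        = (t * a * t⁻¹) ^ (Multiplicative.toAdd v.1).val *
          (t * b * t⁻¹) ^ (Multiplicative.toAdd v.2).val := by
      rw [conj_pow, conj_pow]; group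
    rw [h2, hta, htb, hab.mul_pow]
    rw [← mul_assoc, ← mul_assoc]
    congr 1
    exact (hab.pow_pow _ _).eq
  have hs0 : P (DihedralGroup.sr 0) := by
    intro v
    rw [th3_sr, hδ2]
    have h1 : (0 : ZMod 3).val = 0 := rfl
    rw [h1, pow_zero, pow_zero, mul_one, mul_one, hvh', hvh']
    change a ^ (Multiplicative.toAdd v.2).val * b ^ (Multiplicative.toAdd v.1).val = _
    have h2 : k * (a ^ (Multiplicative.toAdd v.1).val * b ^ (Multiplicative.toAdd v.2).val) * k⁻¹
        = (k * a * k⁻¹) ^ (Multiplicative.toAdd v.1).val *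
          (k * b * k⁻¹) ^ (Multiplicative.toAdd v.2).val := by
      rw [conj_pow, conj_pow]; group
    rw [h2, hka, hkb]
    exact (hab.pow_pow _ _).eq
  have hr : ∀ i : ZMod 3, P (DihedralGroup.r i) := by
    intro i
    have h1 : DihedralGroup.r i = (DihedralGroup.r 1 : DihedralGroup 3) ^ i.val := by
      rw [DihedralGroup.r_one_pow, ZMod.natCast_zmod_val]
    rw [h1]
    generalize i.val = n
    induction n with
    | zero => rw [pow_zero]; exact hone
    | succ n ih => rw [pow_succ]; exact hmul _ _ ih hr1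
  have hsr : ∀ i : ZMod 3, P (DihedralGroup.sr i) := by
    intro i
    have h1 : (DihedralGroup.sr i : DihedralGroup 3) = DihedralGroup.sr 0 * DihedralGroup.r i := by
      rw [DihedralGroup.sr_mul_r, zero_add]
    rw [h1]
    exact hmul _ _ hs0 (hr i)
  have hall : ∀ g, vh.comp (th3 g).toMonoidHom = (MulAut.conj (δ g)).toMonoidHom.comp vh := by
    intro g
    refine MonoidHom.ext fun v => ?_
    change vh (th3 g v) = δ g * vh v * (δ g)⁻¹
    rcases g with i | i
    · exact hr i v
    · exact hsr i v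
  refine ⟨SemidirectProduct.lift vh δ hall, ?_, ?_⟩
  · intro v i
    change vh v * δ (DihedralGroup.r i) = _
    rw [hvh', hδ1]
  · intro v i
    change vh v * δ (DihedralGroup.sr i) = _
    rw [hvh', hδ2]

theorem card_W24 : Nat.card W24 = 24 := by
  rw [SemidirectProduct.card, DihedralGroup.nat_card]
  have : Nat.card V4 = 4 := by
    rw [Nat.card_prod, Nat.card_eq_fintype_card]; rfl
  rw [this]

theorem w24_equiv : Nonempty (W24 ≃* Equiv.Perm (Fin 4)) := by
  obtain ⟨Φ, h1, h2⟩ := exists_whom (G := Equiv.Perm (Fin 4))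
    (a := Equiv.swap 0 1 * Equiv.swap 2 3) (b := Equiv.swap 0 2 * Equiv.swap 1 3)
    (t := Equiv.swap 1 2 * Equiv.swap 2 3) (k := Equiv.swap 1 2)
    (by decide) (by decide) (by unfold Commute SemiconjBy; decide) (by decide) (by decide) (by decide)
    (by decide) (by decide) (by decide) (by decide)
  have hinj : Function.Injective Φ := by
    rw [injective_iff_map_eq_one]
    rintro ⟨v, g⟩ h
    have key : ∀ (v : V4) (i : ZMod 3),
        ((Equiv.swap 0 1 * Equiv.swap 2 3 : Equiv.Perm (Fin 4)) ^ (Multiplicative.toAdd v.1).val *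
        (Equiv.swap 0 2 * Equiv.swap 1 3) ^ (Multiplicative.toAdd v.2).val *
        (Equiv.swap 1 2 * Equiv.swap 2 3) ^ i.val = 1 → v = 1 ∧ i = 0) ∧
        ¬ ((Equiv.swap 0 1 * Equiv.swap 2 3 : Equiv.Perm (Fin 4)) ^ (Multiplicative.toAdd v.1).val *
        (Equiv.swap 0 2 * Equiv.swap 1 3) ^ (Multiplicative.toAdd v.2).val *
        (Equiv.swap 1 2 * (Equiv.swap 1 2 * Equiv.swap 2 3) ^ i.val) = 1) := by
      decide
    rcases g with i | i
    · rw [h1] at h
      obtain ⟨rfl, rfl⟩ := (key v i).1 h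
      rfl
    · rw [h2] at h
      exact absurd h (key v i).2
  have hcard : Nat.card W24 = Nat.card (Equiv.Perm (Fin 4)) := by
    rw [card_W24, Nat.card_eq_fintype_card, Fintype.card_perm, Fintype.card_fin]; rfl
  have hfin : Finite W24 := Nat.finite_of_card_ne_zero (by rw [card_W24]; norm_num)
  exact ⟨MulEquiv.ofBijective Φ ((Nat.bijective_iff_injective_and_card _).2 ⟨hinj, hcard⟩)⟩

theorem d3_equiv : Nonempty (DihedralGroup 3 ≃* Equiv.Perm (Fin 3)) := by
  obtain ⟨Φ, h1, h2⟩ := H20.exists_dihedralHom (G := Equiv.Perm (Fin 3)) (N := 3)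
    (x := Equiv.swap 0 1 * Equiv.swap 1 2) (s := Equiv.swap 0 1) (by decide) (by decide) (by decide)
  have hinj : Function.Injective Φ := by
    rw [injective_iff_map_eq_one]
    intro g h
    have key : ∀ (i : ZMod 3), ((Equiv.swap 0 1 * Equiv.swap 1 2 : Equiv.Perm (Fin 3)) ^ i.val = 1 →
        i = 0) ∧ ¬ ((Equiv.swap 0 1 : Equiv.Perm (Fin 3)) *
          (Equiv.swap 0 1 * Equiv.swap 1 2) ^ i.val = 1) := by decide
    rcases g with i | i
    · rw [h1] at h
      rw [(key i).1 h]; rfl
    · rw [h2] at h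
      exact absurd h (key i).2
  have hcard : Nat.card (DihedralGroup 3) = Nat.card (Equiv.Perm (Fin 3)) := by
    rw [DihedralGroup.nat_card, Nat.card_eq_fintype_card, Fintype.card_perm, Fintype.card_fin]; rfl
  exact ⟨MulEquiv.ofBijective Φ ((Nat.bijective_iff_injective_and_card _).2 ⟨hinj, hcard⟩)⟩

end Cfsg.Agent.OAut
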