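import Cfsg.Agent.OAut.Count3
import Cfsg.Agent.OAut.SmallGrp
import Cfsg.Prelude.Def_KGroupFacts

/-!
Classes of semisimilarities in the outer automorphism group of `PΩ`.
-/

set_option autoImplicit false

namespace Cfsg.Agent.OAut

open QuadraticMap Cfsg.Agent.Orth Cfsg.Agent.ClassO

variable {F V : Type*} [Field F] [AddCommGroup V] [Module F V]
  {Q : QuadraticForm F V}

/-- The class of a semisimilarity. -/
noncomputable def oq (t : SemiSim Q) : Cfsg.Out (CG Q ⧸ Subgroup.center (CG Q)) :=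
  QuotientGroup.mk' (Cfsg.Inn (CG Q ⧸ Subgroup.center (CG Q))) t.qaut

theorem oq_comp (s t : SemiSim Q) : oq (s.comp t) = oq s * oq t := by
  rw [oq, SemiSim.qaut_comp, _root_.map_mul]; rfl

theorem oq_scal (c : Fˣ) : oq (scal Q c) = 1 := by
  rw [oq, scal_qaut, map_one]

theorem qaut_congr {s t : SemiSim Q} (h : ∀ v, s.T v = t.T v) : s.qaut = t.qaut := by
  have h1 : s.T = t.T := AddEquiv.ext h
  refine SemiSim.ext_qaut fun g => ?_
  rw [SemiSim.qaut_mk, SemiSim.qaut_mk]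
  congr 1
  refine cg_ext fun v => ?_
  rw [SemiSim.ap_aut, SemiSim.ap_aut, h1]

theorem oq_congr {s t : SemiSim Q} (h : ∀ v, s.T v = t.T v) : oq s = oq t := by
  rw [oq, oq, qaut_congr h]

theorem qaut_ofIsom (g : CG Q) : (SemiSim.ofIsom (g : OGrp Q)).qaut =
    MulAut.conj (g : CG Q ⧸ Subgroup.center (CG Q)) := by
  refine SemiSim.ext_qaut fun x => ?_
  rw [SemiSim.qaut_mk, MulAut.conj_apply, ← QuotientGroup.mk_mul, ← QuotientGroup.mk_inv,
    ← QuotientGroup.mk_mul]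
  congr 1

theorem oq_om (g : CG Q) : oq (SemiSim.ofIsom (g : OGrp Q)) = 1 := by
  rw [oq, qaut_ofIsom]
  exact (QuotientGroup.eq_one_iff _).2 ⟨_, rfl⟩

theorem oq_eq_one_of {t : SemiSim Q} {c : Fˣ} {g : CG Q} (h : ∀ v, t.T v = (c : F) • ap g v) :
    oq t = 1 := by
  have h1 : oq t = oq ((scal Q c).comp (SemiSim.ofIsom (g : OGrp Q))) := oq_congr h
  rw [h1, oq_comp, oq_scal, oq_om, one_mul]

variable [FiniteDimensional F V] [Finite V] [Finite F]

theorem oq_eq_one_iff (G : Good Q) (t : SemiSim Q) :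
    oq t = 1 ↔ ∃ (c : Fˣ) (g : CG Q), ∀ v, t.T v = (c : F) • ap g v := by
  constructor
  · intro h
    obtain ⟨x, hx⟩ := (QuotientGroup.eq_one_iff _).1 h
    obtain ⟨g, rfl⟩ := QuotientGroup.mk_surjective x
    have h1 : (t.comp (SemiSim.ofIsom (g : OGrp Q)).inv).qaut = 1 := by
      rw [SemiSim.qaut_comp, SemiSim.qaut_inv, qaut_ofIsom]
      change t.qaut * (MulAut.conj (g : CG Q ⧸ Subgroup.center (CG Q)))⁻¹ = 1
      rw [← hx]
      exact mul_inv_cancel _
    obtain ⟨c, hc⟩ := scalar_of_qaut_eq_one G _ h1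
    refine ⟨c, g, fun v => ?_⟩
    have h2 : (t.comp (SemiSim.ofIsom (g : OGrp Q)).inv).T (ap g v) = (scal Q c).T (ap g v) := by
      rw [hc]
    have h3 : (t.comp (SemiSim.ofIsom (g : OGrp Q)).inv).T (ap g v)
        = t.T ((SemiSim.ofIsom (g : OGrp Q)).T.symm ((SemiSim.ofIsom (g : OGrp Q)).T v)) := rfl
    rw [h3, AddEquiv.symm_apply_apply] at h2
    exact h2
  · rintro ⟨c, g, h⟩
    exact oq_eq_one_of h

/-- Classes in the kernel have trivial field part. -/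
theorem σ_eq_of_oq (G : Good Q) {t : SemiSim Q} (h : oq t = 1) : t.σ = RingEquiv.refl F := by
  obtain ⟨c, g, hcg⟩ := (oq_eq_one_iff G t).1 h
  obtain ⟨e, f, hyp⟩ := G.hyp
  refine RingEquiv.ext fun a => ?_
  have h1 := hcg (a • e 0)
  rw [t.smul', ap_smul, hcg, smul_comm] at h1
  have h2 : (c : F) • ap g (e 0) ≠ 0 := by
    rw [← hcg]
    intro h0
    exact hyp.e_ne 0 (t.T.injective (by rw [h0, map_zero]))
  have h3 : t.σ a • ((c : F) • ap g (e 0)) = a • ((c : F) • ap g (e 0)) := by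
    rw [smul_comm, h1, smul_comm]
  exact smul_left_injective F h2 h3

/-- Classes in the kernel have square multiplier. -/
theorem isSquare_of_oq (G : Good Q) {t : SemiSim Q} (h : oq t = 1) : IsSquare t.c := by
  obtain ⟨c, g, hcg⟩ := (oq_eq_one_iff G t).1 h
  obtain ⟨e, f, hyp⟩ := G.hyp
  refine ⟨c, ?_⟩
  have h1 := t.polar' (e 0) (f 0)
  rw [hcg, hcg, psl, psr, ap_polar, hyp.ef, if_pos rfl, map_one, mul_one, mul_one] at h1
  exact h1.symm

/-- The subgroup of classes of semisimilarities. -/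
noncomputable def osub (Q : QuadraticForm F V) : Subgroup (Cfsg.Out (CG Q ⧸ Subgroup.center (CG Q))) :=
  (semiSub Q).map (QuotientGroup.mk' (Cfsg.Inn (CG Q ⧸ Subgroup.center (CG Q))))

omit [FiniteDimensional F V] [Finite V] [Finite F] in
theorem inn_le_semiSub : Cfsg.Inn (CG Q ⧸ Subgroup.center (CG Q)) ≤ semiSub Q := by
  rintro _ ⟨x, rfl⟩
  obtain ⟨g, rfl⟩ := QuotientGroup.mk_surjective x
  exact ⟨_, (qaut_ofIsom g).symm⟩

omit [FiniteDimensional F V] [Finite V] [Finite F] in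
theorem oq_mem (t : SemiSim Q) : oq t ∈ osub Q := ⟨_, ⟨t, rfl⟩, rfl⟩

omit [FiniteDimensional F V] [Finite V] [Finite F] in
theorem mk_mem_osub {α : MulAut (CG Q ⧸ Subgroup.center (CG Q))} :
    (QuotientGroup.mk' (Cfsg.Inn (CG Q ⧸ Subgroup.center (CG Q))) α) ∈ osub Q ↔ α ∈ semiSub Q := by
  constructor
  · rintro ⟨β, hβ, h⟩
    have h1 : β⁻¹ * α ∈ Cfsg.Inn (CG Q ⧸ Subgroup.center (CG Q)) := QuotientGroup.eq.1 h
    have h2 := (semiSub Q).mul_mem hβ (inn_le_semiSub h1)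
    rwa [mul_inv_cancel_left] at h2
  · intro h
    exact ⟨α, h, rfl⟩

theorem out_congr {G H : Type*} [Group G] [Group H] (e : G ≃* H) :
    Nonempty (Cfsg.Out G ≃* Cfsg.Out H) := by
  refine ⟨QuotientGroup.congr _ _ (MulAut.congr e) ?_⟩
  ext x
  constructor
  · rintro ⟨_, ⟨g, rfl⟩, rfl⟩
    refine ⟨e g, ?_⟩
    ext y
    change e g * y * (e g)⁻¹ = e (g * e.symm y * g⁻¹)
    rw [_root_.map_mul, _root_.map_mul, map_inv, MulEquiv.apply_symm_apply]
  · rintro ⟨h, rfl⟩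
    refine ⟨MulAut.conj (e.symm h), ⟨_, rfl⟩, ?_⟩
    ext y
    change e (e.symm h * e.symm y * (e.symm h)⁻¹) = h * y * h⁻¹
    rw [_root_.map_mul, _root_.map_mul, map_inv, MulEquiv.apply_symm_apply, MulEquiv.apply_symm_apply]

theorem out_equiv_pom {ι : Type} [Fintype ι] [DecidableEq ι] {F : Type*} [Field F]
    (Q : QuadraticForm F (ι → F)) :
    Nonempty (Cfsg.Out (Cfsg.POmega F ⇑Q) ≃* Cfsg.Out (CG Q ⧸ Subgroup.center (CG Q))) :=
  out_congr (pomE Q)

end Cfsg.Agent.OAut
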