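import Cfsg.Agent.OAut.OutA

/-!
The order of the outer automorphism group; diagonal, field and swap semisimilarities of the
standard hyperbolic form.
-/

set_option autoImplicit false

namespace Cfsg.Agent.OAut

open QuadraticMap Cfsg.Agent.Orth Cfsg.Agent.ClassO

theorem map_commutator_surj {G H : Type*} [Group G] [Group H] (φ : G →* H)
    (hφ : Function.Surjective φ) : (commutator G).map φ = commutator H := by
  rw [commutator_def, Subgroup.map_commutator, Subgroup.map_top_of_surjective _ hφ]
  rfl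

section Gen

variable {F V : Type*} [Field F] [AddCommGroup V] [Module F V] [FiniteDimensional F V]
  {Q : QuadraticForm F V}

theorem center_quot (G : Good Q) : Subgroup.center (CG Q ⧸ Subgroup.center (CG Q)) = ⊥ := by
  obtain ⟨e, f, h⟩ := G.hyp
  have hs : IsSimpleGroup (CG Q ⧸ Subgroup.center (CG Q)) :=
    isSimple_abs G.nd G.R h _ (commutator_eq_EGrp G.nd G.R h)
  rcases (inferInstance : (Subgroup.center (CG Q ⧸ Subgroup.center (CG Q))).Normal).eq_bot_or_eq_top
    with h1 | h1
  · exact h1
  · exfalso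
    have h2 : commutator (CG Q ⧸ Subgroup.center (CG Q)) = ⊥ :=
      (commutator_eq_bot_iff_center_eq_top _).2 h1
    have h3 : commutator (CG Q) = ⊤ := commutator_perfect G.nd G.R h
    have h4 : (commutator (CG Q)).map (QuotientGroup.mk' (Subgroup.center (CG Q))) =
        commutator (CG Q ⧸ Subgroup.center (CG Q)) :=
      map_commutator_surj _ (QuotientGroup.mk'_surjective _)
    rw [h3, Subgroup.map_top_of_surjective _ (QuotientGroup.mk'_surjective _), h2] at h4
    exact top_ne_bot h4

theorem card_out_mul [Finite V] (G : Good Q) :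
    Nat.card (Cfsg.Out (CG Q ⧸ Subgroup.center (CG Q))) * Nat.card (CG Q ⧸ Subgroup.center (CG Q)) =
      Nat.card (MulAut (CG Q ⧸ Subgroup.center (CG Q))) := by
  have h1 := Subgroup.card_eq_card_quotient_mul_card_subgroup
    (Cfsg.Inn (CG Q ⧸ Subgroup.center (CG Q)))
  rw [h1]
  congr 1
  have hinj : Function.Injective (MulAut.conj : CG Q ⧸ Subgroup.center (CG Q) →*
      MulAut (CG Q ⧸ Subgroup.center (CG Q))) := by
    rw [injective_iff_map_eq_one]
    intro x hx
    have h2 : x ∈ Subgroup.center (CG Q ⧸ Subgroup.center (CG Q)) := by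
      rw [Subgroup.mem_center_iff]
      intro y
      have h3 := DFunLike.congr_fun hx y
      rw [MulAut.conj_apply, MulAut.one_apply, mul_inv_eq_iff_eq_mul] at h3
      exact h3.symm
    rwa [center_quot G, Subgroup.mem_bot] at h2
  exact Nat.card_congr (MonoidHom.ofInjective hinj).toEquiv

end Gen

section Plus

variable {F : Type*} [Field F]

theorem card_out_plus [Fintype F] {p f : ℕ} [Fact p.Prime] (hf : 1 ≤ f)
    (hF : Fintype.card F = p ^ f) {m : ℕ} (hm : 4 ≤ m) :
    Nat.card (Cfsg.Out (CG (qfPlus m F) ⧸ Subgroup.center (CG (qfPlus m F)))) =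
      (if m = 4 then 3 else 1) *
      (if p = 2 then 2 else (if Even (m * (p ^ f - 1) / 2) then 8 else 4)) * f := by
  have h1 := card_aut_plus hf hF hm
  have h2 := card_out_mul (good_plus (F := F) (m := m) (by omega))
  rw [card_mulAut_POmega, ← h2, Nat.card_congr (pomE (qfPlus m F)).toEquiv] at h1
  exact Nat.eq_of_mul_eq_mul_right Nat.card_pos h1

variable {m : ℕ}

/-- Diagonal similarity with multiplier `μ`. -/
def dS (a : Fin m → Fˣ) (μ : Fˣ) : SemiSim (qfPlus m F) where
  T :=
    { toFun := fun v => Sum.elim (fun i => (a i : F) * v (.inl i))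
        (fun i => ((μ * (a i)⁻¹ : Fˣ) : F) * v (.inr i))
      invFun := fun v => Sum.elim (fun i => (((a i)⁻¹ : Fˣ) : F) * v (.inl i))
        (fun i => ((μ⁻¹ * a i : Fˣ) : F) * v (.inr i))
      left_inv := fun v => by
        funext j
        rcases j with j | j
        · change (((a j)⁻¹ : Fˣ) : F) * ((a j : F) * v (.inl j)) = _
          rw [← mul_assoc, ← Units.val_mul, inv_mul_cancel, Units.val_one, one_mul]
        · change ((μ⁻¹ * a j : Fˣ) : F) * (((μ * (a j)⁻¹ : Fˣ) : F) * v (.inr j)) = _
          rw [← mul_assoc, ← Units.val_mul]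
          have : μ⁻¹ * a j * (μ * (a j)⁻¹) = 1 := by
            rw [mul_mul_mul_comm, inv_mul_cancel, mul_inv_cancel, one_mul]
          rw [this, Units.val_one, one_mul]
      right_inv := fun v => by
        funext j
        rcases j with j | j
        · change ((a j : F)) * ((((a j)⁻¹ : Fˣ) : F) * v (.inl j)) = _
          rw [← mul_assoc, ← Units.val_mul, mul_inv_cancel, Units.val_one, one_mul]
        · change ((μ * (a j)⁻¹ : Fˣ) : F) * (((μ⁻¹ * a j : Fˣ) : F) * v (.inr j)) = _
          rw [← mul_assoc, ← Units.val_mul]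
          have : μ * (a j)⁻¹ * (μ⁻¹ * a j) = 1 := by
            rw [mul_mul_mul_comm, mul_inv_cancel, inv_mul_cancel, one_mul]
          rw [this, Units.val_one, one_mul]
      map_add' := fun v w => by
        funext j
        rcases j with j | j
        · exact mul_add _ _ _
        · exact mul_add _ _ _ }
  σ := RingEquiv.refl F
  c := μ
  hc := μ.ne_zero
  smul' t v := by
    funext j
    rcases j with j | j
    · exact mul_left_comm _ _ _
    · exact mul_left_comm _ _ _
  q' v := by
    rw [qfPlus_apply, qfPlus_apply]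
    change _ = (μ : F) * ∑ i : Fin m, v (.inl i) * v (.inr i)
    rw [Finset.mul_sum]
    refine Finset.sum_congr rfl fun i _ => ?_
    change ((a i : F) * v (.inl i)) * (((μ * (a i)⁻¹ : Fˣ) : F) * v (.inr i)) = _
    have : (a i : F) * ((μ * (a i)⁻¹ : Fˣ) : F) = μ := by
      rw [← Units.val_mul]
      congr 1
      rw [mul_left_comm, mul_inv_cancel, mul_one]
    calc _ = ((a i : F) * ((μ * (a i)⁻¹ : Fˣ) : F)) * (v (.inl i) * v (.inr i)) := by ring
      _ = _ := by rw [this]

theorem dS_inl (a : Fin m → Fˣ) (μ : Fˣ) (v : Fin m ⊕ Fin m → F) (i : Fin m) :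
    (dS a μ).T v (.inl i) = (a i : F) * v (.inl i) := rfl

theorem dS_inr (a : Fin m → Fˣ) (μ : Fˣ) (v : Fin m ⊕ Fin m → F) (i : Fin m) :
    (dS a μ).T v (.inr i) = ((μ * (a i)⁻¹ : Fˣ) : F) * v (.inr i) := rfl

theorem oq_dS_mul (a b : Fin m → Fˣ) (μ ν : Fˣ) : oq (dS a μ) * oq (dS b ν) = oq (dS (a * b) (μ * ν)) := by
  rw [← oq_comp]
  refine oq_congr fun v => ?_
  funext j
  change (dS a μ).T ((dS b ν).T v) j = _
  rcases j with j | j
  · rw [dS_inl, dS_inl, dS_inl, Pi.mul_apply, Units.val_mul, mul_assoc]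
  · rw [dS_inr, dS_inr, dS_inr, Pi.mul_apply, ← mul_assoc, ← Units.val_mul, mul_inv]
    congr 2
    exact mul_mul_mul_comm _ _ _ _

theorem oq_dS_scal (c : Fˣ) : oq (dS (fun _ : Fin m => c) (c * c)) = 1 := by
  rw [← oq_scal (Q := qfPlus m F) c]
  refine oq_congr fun v => ?_
  funext j
  rcases j with j | j
  · rfl
  · rw [dS_inr, mul_inv_cancel_right]; rfl

/-- The field semisimilarity. -/
def frS (m : ℕ) (σ : F ≃+* F) : SemiSim (qfPlus m F) where
  T := coordAut σ
  σ := σ
  c := 1
  hc := one_ne_zero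
  smul' t v := by
    funext j
    exact _root_.map_mul σ _ _
  q' v := by
    rw [qfPlus_apply, qfPlus_apply, one_mul, map_sum]
    refine Finset.sum_congr rfl fun i _ => ?_
    exact (_root_.map_mul σ _ _).symm

theorem frS_T (σ : F ≃+* F) (v : Fin m ⊕ Fin m → F) (j : Fin m ⊕ Fin m) :
    (frS m σ).T v j = σ (v j) := rfl

theorem oq_frS_mul (σ τ : F ≃+* F) : oq (frS m σ) * oq (frS m τ) = oq (frS m (τ.trans σ)) := by
  rw [← oq_comp]
  exact oq_congr fun v => rfl

theorem oq_frS_dS (σ : F ≃+* F) (a : Fin m → Fˣ) (μ : Fˣ) : oq (frS m σ) * oq (dS a μ) =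
    oq (dS (fun i => Units.map (σ : F →* F) (a i)) (Units.map (σ : F →* F) μ)) * oq (frS m σ) := by
  rw [← oq_comp, ← oq_comp]
  refine oq_congr fun v => ?_
  funext j
  change (frS m σ).T ((dS a μ).T v) j = (dS _ _).T ((frS m σ).T v) j
  rcases j with j | j
  · rw [frS_T, dS_inl, dS_inl, _root_.map_mul, frS_T]; rfl
  · rw [frS_T, dS_inr, dS_inr, _root_.map_mul, frS_T]
    simp only [Units.val_mul, Units.val_inv_eq_inv_val, _root_.map_mul, map_inv₀, Units.coe_map]
    rfl

/-- Swap of the coordinates `i` with a sign on the others. -/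
def swS (i : Fin m) (ε : Fˣ) (hε : ε * ε = 1) : SemiSim (qfPlus m F) where
  T :=
    { toFun := fun v => Sum.elim (fun j => if j = i then v (.inr j) else (ε : F) * v (.inl j))
        (fun j => if j = i then v (.inl j) else (ε : F) * v (.inr j))
      invFun := fun v => Sum.elim (fun j => if j = i then v (.inr j) else (ε : F) * v (.inl j))
        (fun j => if j = i then v (.inl j) else (ε : F) * v (.inr j))
      left_inv := fun v => by
        have h : (ε : F) * ε = 1 := by rw [← Units.val_mul, hε, Units.val_one]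
        funext j
        rcases j with j | j <;> by_cases hj : j = i <;> simp [hj, ← mul_assoc, h]
      right_inv := fun v => by
        have h : (ε : F) * ε = 1 := by rw [← Units.val_mul, hε, Units.val_one]
        funext j
        rcases j with j | j <;> by_cases hj : j = i <;> simp [hj, ← mul_assoc, h]
      map_add' := fun v w => by
        funext j
        rcases j with j | j <;> by_cases hj : j = i <;> simp [hj, mul_add] }
  σ := RingEquiv.refl F
  c := 1
  hc := one_ne_zero
  smul' t v := by
    funext j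
    rcases j with j | j <;> by_cases hj : j = i <;> simp [hj, mul_left_comm]
  q' v := by
    have h : (ε : F) * ε = 1 := by rw [← Units.val_mul, hε, Units.val_one]
    rw [qfPlus_apply, one_mul]
    change _ = qfPlus m F v
    rw [qfPlus_apply]
    refine Finset.sum_congr rfl fun j _ => ?_
    by_cases hj : j = i
    · simp [hj, mul_comm]
    · have : (ε : F) * v (.inl j) * ((ε : F) * v (.inr j)) = v (.inl j) * v (.inr j) := by
        calc _ = ((ε : F) * ε) * (v (.inl j) * v (.inr j)) := by ring
          _ = _ := by rw [h, one_mul]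
      simp [hj, this]

theorem swS_inl (i : Fin m) (ε : Fˣ) (hε : ε * ε = 1) (v : Fin m ⊕ Fin m → F) (j : Fin m) :
    (swS i ε hε).T v (.inl j) = if j = i then v (.inr j) else (ε : F) * v (.inl j) := rfl

theorem swS_inr (i : Fin m) (ε : Fˣ) (hε : ε * ε = 1) (v : Fin m ⊕ Fin m → F) (j : Fin m) :
    (swS i ε hε).T v (.inr j) = if j = i then v (.inl j) else (ε : F) * v (.inr j) := rfl

theorem oq_swS_mul (i : Fin m) (ε : Fˣ) (hε : ε * ε = 1) : oq (swS i ε hε) * oq (swS i ε hε) = 1 := by
  rw [← oq_comp, ← oq_scal (Q := qfPlus m F) 1]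
  refine oq_congr fun v => ?_
  change (swS i ε hε).T ((swS i ε hε).T v) = ((1 : Fˣ) : F) • v
  rw [Units.val_one, one_smul]
  exact (swS i ε hε).T.left_inv v

theorem oq_frS_swS (σ : F ≃+* F) (i : Fin m) (ε : Fˣ) (hε : ε * ε = 1) (hσ : σ ε = ε) :
    oq (frS m σ) * oq (swS i ε hε) = oq (swS i ε hε) * oq (frS m σ) := by
  rw [← oq_comp, ← oq_comp]
  refine oq_congr fun v => ?_
  funext j
  change (frS m σ).T ((swS i ε hε).T v) j = (swS i ε hε).T ((frS m σ).T v) j
  rcases j with j | j
  · rw [frS_T, swS_inl, swS_inl]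
    by_cases hj : j = i
    · rw [if_pos hj, if_pos hj]; rfl
    · rw [if_neg hj, if_neg hj, _root_.map_mul, hσ]; rfl
  · rw [frS_T, swS_inr, swS_inr]
    by_cases hj : j = i
    · rw [if_pos hj, if_pos hj]; rfl
    · rw [if_neg hj, if_neg hj, _root_.map_mul, hσ]; rfl

theorem oq_swS_dS (i : Fin m) (ε : Fˣ) (hε : ε * ε = 1) (a : Fin m → Fˣ) (μ : Fˣ) :
    oq (swS i ε hε) * oq (dS a μ) =
      oq (dS (fun j => if j = i then μ * (a j)⁻¹ else a j) μ) * oq (swS i ε hε) := by
  rw [← oq_comp, ← oq_comp]
  refine oq_congr fun v => ?_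
  funext j
  change (swS i ε hε).T ((dS a μ).T v) j = (dS _ μ).T ((swS i ε hε).T v) j
  rcases j with j | j
  · by_cases hj : j = i
    · simp only [swS_inl, dS_inl, dS_inr, if_pos hj]
    · simp only [swS_inl, dS_inl, dS_inr, if_neg hj]
      rw [mul_left_comm]
  · by_cases hj : j = i
    · simp only [swS_inr, dS_inl, dS_inr, if_pos hj]
      rw [mul_inv_rev, inv_inv, mul_left_comm, mul_inv_cancel, mul_one]
    · simp only [swS_inr, dS_inl, dS_inr, if_neg hj]
      rw [mul_left_comm]

end Plus

end Cfsg.Agent.OAut
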